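import Mathlib
import Cfsg.Agent.FH.Ward
import Cfsg.Agent.Solv.NilpAmb

/-! Fixed point free coprime actions of a nonabelian group of order `p q`. -/

set_option autoImplicit false
set_option maxSynthPendingDepth 3

namespace Cfsg.Agent.FH
open Module Cfsg.Agent.FT Cfsg.Agent.FT.Rep Cfsg.Agent.PLocal.CommMod Subgroup
open scoped commutatorElement

theorem rep_pq {F : Type*} [Field F] {W : Type*} [AddCommGroup W] [Module F W] {Γ : Type*} [Group Γ]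
    [FiniteDimensional F W] [IsAlgClosed F] [Finite Γ] (σ : Γ →* End F W) {Z Q B H : Subgroup Γ}
    (hc : ∀ a ∈ Z, ∀ b ∈ Z, Commute (σ a) (σ b)) (hn : (Nat.card Z : F) ≠ 0)
    (hB : (Nat.card B).Prime) (hH : (Nat.card H).Prime) (hHB : H ≤ 𝒩(B)) (hBZ : B ≤ 𝒩(Z))
    (hHZ : H ≤ 𝒩(Z)) (hQZ : Q ≤ 𝒩(Z)) (hZB : Z ≤ ⁅Z, B⁆) (hZQ : Z ≤ ⁅Z, Q⁆) (hQB : Q ≤ 𝒞(B))
    (hQH : Q ≤ ⁅Q, H⁆) (hcop : (Nat.card B).Coprime (Nat.card Q)) (hfix : fix σ (B ⊔ H) = ⊥) :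
    fix σ Z = ⊤ := by
  by_contra hne
  have hfree : ∀ χ, wt σ Z χ ≠ ⊥ → (∃ z ∈ Z, χ z ≠ 1) → ∀ b ∈ B, b • χ = χ → b = 1 := by
    rintro χ h0 ⟨z, hz, hz1⟩ b hb h
    by_contra h1
    exact hz1 (wt_eq_one_of_fixed h0 hBZ
      (zpowers_eq_of_card_prime hB hb h1 ▸ zpowers_le.mpr h) z (hZB hz))
  have hS : ∀ χ, wt σ Z χ ≠ ⊥ → (∃ z ∈ Z, χ z ≠ 1) → H ≤ B ⊔ 𝒩(B) ⊓ MulAction.stabilizer Γ χ := by
    intro χ h0 h1
    by_contra hc'
    refine fix_ne_bot_of_free σ (sup_le hBZ hHZ) hc h0 (fun a ha hχ => ?_) hfix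
    obtain ⟨b, hb, y, hy, rfl⟩ := (mem_sup_norm hHB).mp ha
    by_cases hy1 : y = 1
    · rw [hy1, mul_one] at hχ ⊢
      exact hfree χ h0 h1 b hb hχ
    refine absurd (zpowers_eq_of_card_prime hH hy hy1 ▸ zpowers_le.mpr ?_) hc'
    rw [← inv_mul_cancel_left b y]
    exact mul_mem_sup (inv_mem hb) ⟨mul_mem (le_norm_self B hb) (hHB hy), hχ⟩
  obtain ⟨χ, h0, z, hz, hz1⟩ := exists_wt σ hc hn le_rfl hne
  have hQ : Q ≤ B ⊔ 𝒩(B) ⊓ MulAction.stabilizer Γ χ := by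
    refine hQH.trans (commutator_le.mpr fun x hx y hy => mul_mem ?_ (inv_mem (hS χ h0 ⟨z, hz, hz1⟩ hy)))
    have hxB := cent_le_norm B (hQB hx)
    obtain ⟨b, hb, s, hs, rfl⟩ := (mem_sup_norm inf_le_left).mp (hS (x⁻¹ • χ)
      (wt_smul_ne_bot σ (hQZ (inv_mem hx)) h0) ⟨x⁻¹ * z * x, conj_mem_of_mem_normalizer' (hQZ hx) hz,
        by simpa [smul_wt_apply, mul_assoc] using hz1⟩ hy)
    rw [show x * (b * s) * x⁻¹ = x * b * x⁻¹ * (x * s * x⁻¹) by group]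
    refine mul_mem_sup (conj_mem_of_mem_normalizer hxB hb)
      (mem_inf.mpr ⟨mul_mem (mul_mem hxB hs.1) (inv_mem hxB), ?_⟩)
    rw [MulAction.mem_stabilizer_iff, mul_smul, mul_smul, hs.2, smul_inv_smul]
  refine hz1 (wt_eq_one_of_fixed h0 hQZ (fun x hx => ?_) z (hZQ hz))
  obtain ⟨b, hb, s, hs, e⟩ := (mem_sup_norm inf_le_left).mp (hQ hx)
  have h1 : Commute b⁻¹ x := (show Commute b x from hQB hx b hb).inv_left
  have h2 := (MulAction.stabilizer Γ χ).pow_mem hs.2 (Nat.card Q)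
  rw [eq_inv_mul_of_mul_eq e, h1.mul_pow,
    show x ^ Nat.card Q = 1 from congrArg Subtype.val (pow_card_eq_one' (x := (⟨x, hx⟩ : Q))),
    mul_one] at h2
  have h3 : b⁻¹ = 1 := orderOf_eq_one_iff.mp (Nat.eq_one_of_dvd_coprimes hcop
    (orderOf_dvd_natCard B (inv_mem hb))
    (orderOf_dvd_of_pow_eq_one (hfree χ h0 ⟨z, hz, hz1⟩ _ (pow_mem (inv_mem hb) _) h2)))
  rw [← e, inv_eq_one.mp h3, one_mul]
  exact hs.2

universe u

variable {G : Type u} [Group G] [Finite G]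

theorem elem_pq {l : ℕ} (hl : l.Prime) {M Z Q B H : Subgroup G} (hM : IsElementaryAbelian l M)
    (hZ : IsMulCommutative Z) (hlZ : ¬ l ∣ Nat.card Z) (hZM : Z ≤ 𝒩(M)) (hQM : Q ≤ 𝒩(M))
    (hAM : B ⊔ H ≤ 𝒩(M)) (hB : (Nat.card B).Prime) (hH : (Nat.card H).Prime) (hHB : H ≤ 𝒩(B))
    (hAZ : B ⊔ H ≤ 𝒩(Z)) (hQZ : Q ≤ 𝒩(Z)) (hZB : Z ≤ ⁅Z, B⁆) (hZQ : Z ≤ ⁅Z, Q⁆) (hQB : Q ≤ 𝒞(B))
    (hQH : Q ≤ ⁅Q, H⁆) (hcop : (Nat.card B).Coprime (Nat.card Q)) (hfix : M ⊓ 𝒞(B ⊔ H) = ⊥) :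
    Z ≤ 𝒞(M) := by
  have := Fact.mk hl
  obtain ⟨W, i1, i2, i3, σ, -, -, -, c3, c4, -⟩ := (Sec.of_elem hl hM (L := 𝒩(M)) le_rfl).rep
  have hBM := le_sup_left.trans hAM
  have hHM := le_sup_right.trans hAM
  refine le_cent_comm.mp (comm_eq_bot_iff.mp (le_bot_iff.mp ((c3 Z hZM).mp (rep_pq σ
    (Q := Q.subgroupOf _) (B := B.subgroupOf _) (H := H.subgroupOf _)
    (fun a ha b hb => Commute.map (Subtype.ext (abelian_iff.mp hZ hb a ha)) σ) (cast_card_ne hZM hlZ)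
    (by rwa [So.card hBM]) (by rwa [So.card hHM]) (So.norm _ hHB) (So.norm _ (le_sup_left.trans hAZ))
    (So.norm _ (le_sup_right.trans hAZ)) (So.norm _ hQZ) ?_ ?_ (fun x hx b hb => Subtype.ext
      (hQB hx b hb)) ?_ (by rwa [So.card hBM, So.card hQM]) ?_))))
  · rw [So.comm hZM hBM]; exact comap_mono hZB
  · rw [So.comm hZM hQM]; exact comap_mono hZQ
  · rw [So.comm hQM hHM]; exact comap_mono hQH
  · rw [So.sup hBM hHM, c4 _ hAM, centMod_bot, hfix]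

theorem comm_le_res {K X Y : Subgroup G} (hX : X ≤ K) (hY : Y ≤ K)
    (h : (Nat.card X).Coprime (Nat.card Y)) : ⁅X, Y⁆ ≤ res K := by
  have := NormIn.normal (H := res K) ⟨res_le K, norm_res (le_norm_self K)⟩
  exact (Qt.le_cent_iff' hX hY).mp (Solv.NA.le_centralizer_of_coprime (res_eq_bot_iff.mp
    (by rw [← qt_res le_rfl, Qt.eq_bot_of_le le_rfl])) (Qt.mono hX) (Qt.mono hY)
    (Qt.coprime hX hY h))

theorem cop_of_not_dvd {l : ℕ} (hl : l.Prime) {M Z : Subgroup G} (hM : IsPGroup l M)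
    (h : ¬ l ∣ Nat.card Z) : (Nat.card Z).Coprime (Nat.card M) := by
  have := Fact.mk hl
  obtain ⟨k, hk⟩ := hM.exists_card_eq
  exact hk ▸ ((hl.coprime_iff_not_dvd.mpr h).symm).pow_right k

/-- The group generated by `k` and `h`. -/
abbrev fA (k h : G) : Subgroup G := zpowers k ⊔ zpowers h

/-- A nonabelian group `⟨k⟩ ⋊ ⟨h⟩` of order `p q` acting coprimely and fixed point freely. -/
structure FA (K : Subgroup G) (k h : G) : Prop where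
  hk : (Nat.card (zpowers k)).Prime
  hh : (Nat.card (zpowers h)).Prime
  hkh : (Nat.card (zpowers h)).Coprime (Nat.card (zpowers k))
  norm : zpowers h ≤ 𝒩(zpowers k)
  reg : zpowers k ⊓ 𝒞[h] = ⊥
  AK : fA k h ≤ 𝒩(K)
  cop : (Nat.card (fA k h)).Coprime (Nat.card K)
  solv : Group.IsSolvable K
  fix : K ⊓ 𝒞(fA k h) = ⊥

namespace FA

variable {K X E M Z : Subgroup G} {k h b : G} (f : FA K k h)
include f

theorem sub (hX : X ≤ K) (hA : fA k h ≤ 𝒩(X)) : FA X k h :=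
  { f with
    AK := hA, cop := cop_le f.cop le_rfl hX, solv := isSolvable_of_le hX f.solv
    fix := eq_bot_iff.mpr ((inf_le_inf_right _ hX).trans f.fix.le) }

omit [Finite G] in
theorem normk : fA k h ≤ 𝒩(zpowers k) := sup_le (le_norm_self _) f.norm

theorem copk (hX : X ≤ K) : (Nat.card (zpowers k)).Coprime (Nat.card X) :=
  cop_le f.cop le_sup_left hX

theorem coph (hX : X ≤ K) : (Nat.card (zpowers h)).Coprime (Nat.card X) :=
  cop_le f.cop le_sup_right hX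

omit [Finite G] in
theorem fixk : K ⊓ 𝒞[k] ⊓ 𝒞(zpowers h) = ⊥ := by
  rw [← cent_zpowers, inf_assoc, ← cent_sup, f.fix]

omit [Finite G] in
theorem cent_norm : fA k h ≤ 𝒩(K ⊓ 𝒞[k]) :=
  norm_inf f.AK (cent_zpowers k ▸ norm_cent f.normk)

theorem res_cent : res (K ⊓ 𝒞[k]) = ⊥ :=
  res_cent_eq_bot f.hh (f.AK (mem_sup_right (mem_zpowers h))) (f.norm (mem_zpowers h)) f.fix

theorem le_of_comm (hE : E ≤ K) (hb : b ∈ zpowers k) (hb1 : b ≠ 1) (h1 : ⁅K, zpowers h⁆ ≤ E)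
    (h2 : ⁅K, zpowers (b * h * b⁻¹)⁆ ≤ E) : K ≤ E := by
  have key : ∀ a, ⁅K, zpowers a⁆ ≤ E → a ∈ centMod K E := fun a ha =>
    (le_centMod' (le_norm_of_comm_le ((commutator_mono hE le_rfl).trans ha))).mpr ha (mem_zpowers a)
  have h3 := zpowers_eq_of_card_prime f.hk
    (comm_le_left f.norm (commutator_mem_commutator hb (mem_zpowers h))) fun e =>
      hb1 (f.reg.le ⟨hb, mem_cent1_iff.mpr (commutatorElement_eq_one_iff_mul_comm.mp e)⟩)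
  have h4 : fA k h ≤ centMod K E := sup_le (h3 ▸ zpowers_le.mpr (mul_mem (key _ h2)
    (inv_mem (key _ h1)))) (zpowers_le.mpr (key _ h1))
  rw [← Solv.coprime_commutator_sup_centralizer _ K f.AK f.cop (Or.inr f.solv), f.fix, sup_bot_eq]
  exact (commutator_mono le_rfl h4).trans (comm_centMod_le _ _)

theorem mem_of_norm {d : G} (hE : K ≤ 𝒩(E)) (hhE : zpowers h ≤ 𝒩(E)) (hd : d ∈ K)
    (hc : d ∈ centMod (zpowers h) E) (h1 : ∀ a ∈ zpowers k, a ≠ 1 → a * d * a⁻¹ ∈ E) : d ∈ E := by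
  obtain ⟨e, he, hde⟩ := exists_norm (f.AK (mem_sup_left (mem_zpowers k))) hE (f.copk le_rfl) hd h1
  have hH := le_sup_right.trans f.cent_norm
  have h2 : e ∈ centMod (zpowers h) E := by
    simpa using mul_mem hc (le_centMod_self hhE hde)
  have h3 := fix_sec (N := K ⊓ 𝒞[k] ⊓ E) inf_le_left le_rfl (norm_inf hH hhE) (f.coph inf_le_left)
    (Or.inl (solv_cyc h)) f.fixk ⟨he, norm_inf (le_norm_self _) (inf_le_left.trans hE) he,
      fun y hy => ⟨comm_le_left hH (commutator_mem_commutator he hy), h2.2 y hy⟩⟩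
  simpa using E.mul_mem h3.2 (E.inv_mem hde)

theorem qt {L N : Subgroup G} [(N.subgroupOf L).Normal] (hA : fA k h ≤ L) (hK : K ≤ L) (hN : N ≤ L)
    (hcop : (Nat.card (fA k h)).Coprime (Nat.card N)) :
    FA (qt L N K) ((⟨k, hA (mem_sup_left (mem_zpowers k))⟩ : L) : L ⧸ N.subgroupOf L)
      ((⟨h, hA (mem_sup_right (mem_zpowers h))⟩ : L) : L ⧸ N.subgroupOf L) := by
  set k' : L := ⟨k, hA (mem_sup_left (mem_zpowers k))⟩
  set h' : L := ⟨h, hA (mem_sup_right (mem_zpowers h))⟩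
  have e : fA (k' : L ⧸ N.subgroupOf L) h' = FT.qt L N (fA k h) := by
    rw [Qt.qt_sup (le_sup_left.trans hA) (le_sup_right.trans hA), fA, ← Qt.qt_zpowers,
      ← Qt.qt_zpowers]
  have e1 := qt_card1 k' (cop_le hcop le_sup_left le_rfl)
  have e2 := qt_card1 h' (cop_le hcop le_sup_right le_rfl)
  refine ⟨e1 ▸ f.hk, e2 ▸ f.hh, by rw [e1, e2]; exact f.hkh, ?_, ?_, e ▸ Qt.norm f.AK,
    e ▸ Qt.coprime hA hK f.cop, Qt.solvable hK f.solv, ?_⟩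
  · rw [← Qt.qt_zpowers, ← Qt.qt_zpowers]; exact Qt.norm f.norm
  · rw [← Qt.qt_zpowers, ← qt_inf_cent1 h' (le_sup_left.trans hA) (f.norm (mem_zpowers h)) hN f.hkh,
      f.reg, Qt.eq_bot_of_le bot_le]
  · rw [e, ← qt_inf_cent_eq hA hK f.AK hN f.cop (Or.inr f.solv), f.fix, Qt.eq_bot_of_le bot_le]

variable {l : ℕ} (hl : l.Prime) (hM : IsElementaryAbelian l K) (hZ : IsMulCommutative Z)
  (hZK : Z ≤ 𝒩(K)) (hlZ : ¬ l ∣ Nat.card Z)
include hl hM hZ hZK hlZ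

theorem vp_faith (hA : fA k h ≤ 𝒩(Z)) (hZk : Z ≤ ⁅Z, zpowers k⁆)
    (hc : Z ≤ 𝒞(⁅K ⊓ 𝒞(⁅Z, zpowers h⁆), Z⁆)) : Z ≤ 𝒞(K) := by
  have := Fact.mk hl
  have hD : Z ≤ 𝒩(⁅Z, zpowers h⁆) := Solv.le_normalizer_commutator_left _ _
  have h1 : K ⊓ 𝒞(⁅Z, zpowers h⁆) ≤ 𝒞(Z) := comm_eq_bot_iff.mp (Solv.coprime_commutator_eq_bot Z _
    (norm_inf hZK (norm_cent hD)) (cop_le (cop_of_not_dvd hl (elem_pgroup hM) hlZ)
      le_rfl inf_le_left) (Or.inr (isSolvable_of_le inf_le_left f.solv))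
    (comm_eq_bot_iff.mpr (le_cent_comm.mp hc)))
  refine le_cent_comm.mp (comm_eq_bot_iff.mp (le_bot_iff.mp
    ((Sec.of_elem hl hM (L := 𝒩(K)) le_rfl).free hZK f.AK hA hlZ
      (by rw [abelian_iff_commutator_eq_bot.mp hZ, commutator_bot_right]) (fun a ha ha1 => ?_)
      (by rw [centMod_bot, f.fix]))))
  rw [centMod_bot, centMod_bot]
  obtain ⟨b, hb, y, hy, rfl⟩ := (mem_sup_norm f.norm).mp ha
  by_cases hy1 : y = 1
  · rw [hy1, mul_one] at ha1 ⊢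
    rw [zpowers_eq_of_card_prime f.hk hb ha1]
    exact inf_le_right.trans (cent_anti hZk)
  have e := zpowers_eq_of_card_prime f.hh hy hy1
  obtain ⟨c, hc⟩ := (conj_surj_of_fpf (f.norm hy)
    (by rw [← cent_zpowers, e, cent_zpowers, f.reg])).2 ⟨b, hb⟩
  have hcZ := cj_of_mem_normalizer (hA (mem_sup_left c.2))
  rw [← show (c : G) * (y * (c : G)⁻¹ * y⁻¹) = b from congrArg Subtype.val hc,
    show c * (y * (c : G)⁻¹ * y⁻¹) * y = c * y * (c : G)⁻¹ by group, ← cj_zpowers, e, ← hcZ,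
    ← cj_of_mem_normalizer (f.AK (mem_sup_left c.2)), ← cj_commutator, ← cj_centralizer,
    ← cj_centralizer, ← cj_inf]
  exact cj_mono _ h1

theorem vp_fix (g : FA Z k h) : ⁅K ⊓ 𝒞(⁅Z, zpowers h⁆), Z⁆ ⊓ 𝒞[h] = ⊥ := by
  have := hM.1
  set D := ⁅Z, zpowers h⁆
  have hD : D ≤ Z := comm_le_left (le_sup_right.trans g.AK)
  have hU := comm_le_left (norm_inf hZK (norm_cent (le_norm_of_abelian hD hZ)))
  have hH := le_sup_right.trans f.AK
  have hE : ⁅K, D⁆ ≤ K := comm_le_left (hD.trans hZK)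
  have hhE : zpowers h ≤ 𝒩(⁅K, D⁆) := norm_comm hH (Solv.le_normalizer_commutator_right _ _)
  rw [eq_bot_iff, ← Solv.coprime_centralizer_inf_commutator D K (hD.trans hZK)
    (cop_le (cop_of_not_dvd hl (elem_pgroup hM) hlZ) hD le_rfl)]
  refine fun v hv => ⟨hU hv.1, f.mem_of_norm (le_norm_of_abelian hE this) hhE (hU hv.1).1
    (cent_le_centMod (le_norm_of_abelian hE this) ⟨(hU hv.1).1, cent_zpowers h ▸ hv.2⟩)
    fun a ha h1 => ?_⟩
  have ha' := mem_sup_left (T := zpowers h) (inv_mem ha)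
  have h2 : ⁅Z, zpowers (a⁻¹ * h * a⁻¹⁻¹)⁆ = cj a⁻¹ D := by
    rw [cj_commutator, cj_zpowers, cj_of_mem_normalizer (g.AK ha')]
  have h3 : cj a⁻¹ D ≤ Z := cj_of_mem_normalizer (g.AK ha') ▸ cj_mono _ hD
  have h4 := g.le_of_comm (sup_le hD h3) (inv_mem ha) (inv_ne_one.mpr h1) le_sup_left
    (h2.le.trans le_sup_right)
  have h5 : Z ≤ 𝒩(⁅K, cj a⁻¹ D⁆) := norm_comm hZK (le_norm_of_abelian h3 hZ)
  have h6 := (commutator_mono le_rfl h4).trans (commutator_sup_le' (hD.trans h5) (h3.trans h5)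
    ((comm_eq_bot_iff.mpr inf_le_right).le.trans bot_le) (commutator_mono inf_le_left le_rfl)) hv.1
  rw [← cj_of_mem_normalizer (f.AK ha'), ← cj_commutator, mem_cj, inv_inv] at h6
  exact h6

end FA

end Cfsg.Agent.FH
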